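import Mathlib
import Cfsg.Agent.S1453
import Cfsg.Agent.S0093
import Cfsg.Agent.S0121
import Cfsg.Agent.Lib.Helper54.OmegaAut
import Cfsg.Agent.Lib.Helper24.ElemAb

/-!
# A characteristic chain in a `p`-group of rank at least three with a maximal elementary
abelian subgroup of order `p ^ 2` (Bender–Glauberman, Section 5)

* `card_le_mul_of_fiber`: a counting lemma.
* `narrow_chain`: for `p` odd, a finite `p`-group `R` of `p`-rank at least `3` having an
  elementary abelian subgroup of order `p ^ 2` contained in no larger one, there is a chain of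
  characteristic subgroups `1 = F 0 ≤ F 1 ≤ ⋯` with `|F (i+1)| ≤ p |F i|` and such that every
  `p'`-automorphism of `R` fixing `F m` pointwise is trivial.
-/

set_option autoImplicit false

namespace Cfsg.Agent.Lib.Helper54

open scoped commutatorElement

/-- Counting lemma: if `f` maps `A` into `s` and two elements of `A` with the same image
differ by an element of `K`, then `|A| ≤ |K| * |s|`. -/
theorem card_le_mul_of_fiber {R β : Type*} [Group R] [Finite R] [Finite β] (A K : Subgroup R)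
    (s : Set β) (f : R → β) (hf : ∀ a ∈ A, f a ∈ s)
    (hK : ∀ a₁ ∈ A, ∀ a₂ ∈ A, f a₁ = f a₂ → a₂⁻¹ * a₁ ∈ K) :
    Nat.card A ≤ Nat.card K * Nat.card s := by
  classical
  obtain ⟨rep, hrep⟩ : ∃ rep : β → R, ∀ a ∈ A, rep (f a) ∈ A ∧ f (rep (f a)) = f a := by
    refine ⟨fun b => if h : ∃ a ∈ A, f a = b then h.choose else 1, ?_⟩
    intro a ha
    have h : ∃ a' ∈ A, f a' = f a := ⟨a, ha, rfl⟩
    simp only [dif_pos h]
    exact h.choose_spec
  let g : A → K × s := fun a =>
    (⟨(rep (f a))⁻¹ * a, hK a a.2 _ (hrep a a.2).1 (hrep a a.2).2.symm⟩, ⟨f a, hf a a.2⟩)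
  have hg : Function.Injective g := by
    intro a₁ a₂ h
    have h1 : f a₁ = f a₂ := congrArg (fun z => (z.2 : β)) h
    have h2 : (rep (f a₁))⁻¹ * (a₁ : R) = (rep (f a₂))⁻¹ * (a₂ : R) :=
      congrArg (fun z => (z.1 : R)) h
    rw [h1] at h2
    exact Subtype.ext (mul_left_cancel h2)
  have h3 := Nat.card_le_card_of_injective g hg
  rwa [Nat.card_prod] at h3

/-- The characteristic chain of a `p`-group of rank at least three with a maximal elementary
abelian subgroup of order `p ^ 2`. -/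
theorem narrow_chain {R : Type*} [Group R] [Finite R] (p : ℕ) [Fact p.Prime] (hp : p ≠ 2)
    (hR : IsPGroup p R) (hr : ¬ Cfsg.PRankLE p 2 R)
    (E : Subgroup R) (hE : Cfsg.IsElementaryAbelian p E) (hE2 : Nat.card E = p ^ 2)
    (hEmax : ∀ B : Subgroup R, Cfsg.IsElementaryAbelian p B → E ≤ B → B = E) :
    ∃ (m : ℕ) (Fc : ℕ → Subgroup R), Fc 0 = ⊥ ∧ (∀ i, (Fc i).Characteristic) ∧
      (∀ i, Fc i ≤ Fc (i + 1)) ∧ (∀ i, Nat.card (Fc (i + 1)) ≤ p * Nat.card (Fc i)) ∧
      ∀ φ : MulAut R, (orderOf φ).Coprime p → (∀ x ∈ Fc m, φ x = x) → φ = 1 := by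
  classical
  have hpp : p.Prime := Fact.out
  have hnil : Group.IsNilpotent R := hR.isNilpotent
  obtain ⟨hET, hZ, -, hTchar, hTidx⟩ := Cfsg.Agent.S1453.result p hp hR hr E hE hE2 hEmax
  obtain ⟨T, hTdef⟩ : ∃ T : Subgroup R, T = Subgroup.centralizer ((Subgroup.closure
      {x : R | x ∈ Subgroup.upperCentralSeries R 2 ∧ x ^ p = 1} : Subgroup R) : Set R) :=
    ⟨_, rfl⟩
  rw [← hTdef] at hET hTchar hTidx
  obtain ⟨Z', hZ'def⟩ : ∃ Z' : Subgroup R,
      Z' = Subgroup.closure {x : R | x ∈ Subgroup.center R ∧ x ^ p = 1} := ⟨_, rfl⟩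
  rw [← hZ'def] at hZ
  obtain ⟨hEc, hEe⟩ := hE
  have hcE : ∀ x ∈ E, ∀ y ∈ E, x * y = y * x := fun x hx y hy =>
    congrArg Subtype.val (hEc.is_comm.comm ⟨x, hx⟩ ⟨y, hy⟩)
  -- elements of order p centralizing E lie in E
  have hext : ∀ a : R, a ^ p = 1 → (∀ e ∈ E, a * e = e * a) → a ∈ E := by
    intro a hap hae
    have hB : Cfsg.IsElementaryAbelian p (E ⊔ Subgroup.zpowers a) :=
      ⟨⟨⟨fun u v => Subtype.ext
          (Cfsg.Agent.Lib.Helper24.sup_zpowers_comm E a hcE hae u u.2 v v.2)⟩⟩,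
        Cfsg.Agent.Lib.Helper24.sup_zpowers_pow E a p hcE hEe hae hap⟩
    have h1 := hEmax _ hB le_sup_left
    rw [← h1]
    exact le_sup_right (a := E) (Subgroup.mem_zpowers a)
  -- subgroups of E
  have hsubE : ∀ H : Subgroup R, H ≤ E → H ≠ E → Nat.card H ≤ p := by
    intro H hHE hne
    have hdvd : Nat.card H ∣ p ^ 2 := by
      rw [← hE2]
      exact Subgroup.card_dvd_of_le hHE
    obtain ⟨i, hi, hci⟩ := (Nat.dvd_prime_pow hpp).mp hdvd
    have hi1 : i ≤ 1 := by
      by_contra hcon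
      have hi2 : i = 2 := by omega
      exact hne (Subgroup.eq_of_le_of_card_ge hHE (by rw [hci, hi2, hE2]))
    rw [hci]
    calc p ^ i ≤ p ^ 1 := Nat.pow_le_pow_right hpp.pos hi1
      _ = p := pow_one p
  have hZ'E : Z' ≤ E := by
    rw [hZ'def, Subgroup.closure_le]
    intro x hx
    exact hext x hx.2 (fun e _ => (Subgroup.mem_center_iff.mp hx.1 e).symm)
  have hZ'c : ∀ S : Set R, Z' ≤ Subgroup.centralizer S := by
    intro S
    rw [hZ'def, Subgroup.closure_le]
    intro x hx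
    exact Subgroup.center_le_centralizer S hx.1
  have hZ'T : Z' ≤ T := by rw [hTdef]; exact hZ'c _
  obtain ⟨x₀, hx₀E, hx₀T⟩ := SetLike.not_le_iff_exists.mp hET
  -- the key fact
  have hKF : ∀ u ∈ T, u ^ p = 1 → u * x₀ = x₀ * u → u ∈ E := by
    intro u huT hup hux
    apply hext u hup
    by_contra hcon
    have hD : E ⊓ Subgroup.centralizer {u} ≠ E := by
      intro h
      apply hcon
      intro e he
      have h1 : e ∈ E ⊓ Subgroup.centralizer {u} := by rw [h]; exact he
      exact Subgroup.mem_centralizer_iff.mp h1.2 u rfl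
    have hDc := hsubE _ inf_le_left hD
    have hZD : Z' ≤ E ⊓ Subgroup.centralizer {u} := le_inf hZ'E (hZ'c _)
    have hEq : Z' = E ⊓ Subgroup.centralizer {u} :=
      Subgroup.eq_of_le_of_card_ge hZD (by rw [hZ]; exact hDc)
    have hx₀C : x₀ ∈ Subgroup.centralizer {u} := by
      rw [Subgroup.mem_centralizer_iff]
      intro w hw
      rw [Set.mem_singleton_iff] at hw
      rw [hw]
      exact hux
    have hx₀D : x₀ ∈ Z' := by
      rw [hEq]
      exact Subgroup.mem_inf.mpr ⟨hx₀E, hx₀C⟩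
    exact hx₀T (hZ'T hx₀D)
  have hETc : Nat.card (E ⊓ T : Subgroup R) ≤ p :=
    hsubE _ inf_le_left (fun h => hET (inf_eq_left.mp h))
  -- the critical subgroup
  obtain ⟨C, hCchar, h1, h2, h3⟩ := Cfsg.Agent.S0093.result hR
  have hcl : ∀ a ∈ C, ∀ b ∈ C, ∀ w ∈ C, Commute ⁅a, b⁆ w := by
    intro a ha b hb w hw
    have hm : ⁅a, b⁆ ∈ ⁅C, (⊤ : Subgroup R)⁆ :=
      Subgroup.commutator_mem_commutator ha (Subgroup.mem_top _)
    exact (Subgroup.mem_centralizer_iff.mp (h2 hm).2 w hw).symm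
  have hmulp : ∀ a ∈ C, ∀ b ∈ C, a ^ p = 1 → b ^ p = 1 → (a * b) ^ p = 1 := by
    intro a ha b hb hap hbp
    obtain ⟨c, hcdef⟩ : ∃ c : R, c = ⁅b⁻¹, a⁻¹⁆ := ⟨_, rfl⟩
    have hcx : Commute c a := by rw [hcdef]; exact hcl _ (C.inv_mem hb) _ (C.inv_mem ha) a ha
    have hcz : Commute c b := by rw [hcdef]; exact hcl _ (C.inv_mem hb) _ (C.inv_mem ha) b hb
    have hc : b * a = a * b * c := by rw [hcdef, commutatorElement_def]; group
    have hcp : c ^ p = 1 := by
      have e2 : a⁻¹ * b * a = b * c := by rw [hcdef, commutatorElement_def]; group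
      have e3 : (a⁻¹ * b * a) ^ p = 1 := by
        have e4 : (a⁻¹ * b * a) ^ p = a⁻¹ * b ^ p * a := by
          have := conj_pow (a := a⁻¹) (b := b) (i := p)
          simpa using this
        rw [e4, hbp]; group
      rw [e2, hcz.symm.mul_pow, hbp, one_mul] at e3
      exact e3
    have h5 := mul_pow_of_central hc hcx hcz p
    obtain ⟨t, ht⟩ := omega_exponent_odd hpp hp
    rw [pow_one] at ht
    rw [h5, hap, hbp, ht, pow_mul, hcp, one_pow, one_mul, one_mul]
  obtain ⟨H, hHdef⟩ : ∃ H : Subgroup R, ∀ c : R, c ∈ H ↔ c ∈ C ∧ c ^ p = 1 := by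
    refine ⟨{ carrier := {c | c ∈ C ∧ c ^ p = 1}
              mul_mem' := fun {a b} ha hb => ⟨C.mul_mem ha.1 hb.1, hmulp a ha.1 b hb.1 ha.2 hb.2⟩
              one_mem' := ⟨C.one_mem, one_pow p⟩
              inv_mem' := fun {a} ha => ⟨C.inv_mem ha.1, by rw [inv_pow, ha.2, inv_one]⟩ }, ?_⟩
    intro c
    rfl
  have hHchar : H.Characteristic := by
    rw [Subgroup.characteristic_iff_le_comap]
    intro ϕ c hc
    rw [Subgroup.mem_comap, hHdef]
    rw [hHdef] at hc
    refine ⟨Subgroup.characteristic_iff_le_comap.mp hCchar ϕ hc.1, ?_⟩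
    change (ϕ c) ^ p = 1
    rw [← map_pow, hc.2, map_one]
  have hHn : H.Normal := inferInstance
  have hTn : T.Normal := inferInstance
  obtain ⟨n, hn⟩ := hnil.nilpotent
  refine ⟨n + 1, fun i => if i ≤ n then H ⊓ T ⊓ Subgroup.upperCentralSeries R i else H,
    ?_, ?_, ?_, ?_, ?_⟩
  · simp only [if_pos (Nat.zero_le n), Subgroup.upperCentralSeries_zero, inf_bot_eq]
  · intro i
    by_cases hi : i ≤ n
    · simp only [if_pos hi]
      infer_instance
    · simp only [if_neg hi]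
      exact hHchar
  · intro i
    by_cases hi : i + 1 ≤ n
    · simp only [if_pos hi, if_pos (Nat.le_of_succ_le hi)]
      exact inf_le_inf_left _ (Subgroup.upperCentralSeries_mono R (Nat.le_succ i))
    · by_cases hi' : i ≤ n
      · simp only [if_neg hi, if_pos hi']
        exact inf_le_left.trans inf_le_left
      · simp only [if_neg hi, if_neg hi']
        exact le_rfl
  · intro i
    by_cases hi : i + 1 ≤ n
    · simp only [if_pos hi, if_pos (Nat.le_of_succ_le hi)]
      have hcount := card_le_mul_of_fiber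
        (H ⊓ T ⊓ Subgroup.upperCentralSeries R (i + 1)) (E ⊓ T)
        ((H ⊓ T ⊓ Subgroup.upperCentralSeries R i : Subgroup R) : Set R)
        (fun h => ⁅h, x₀⁆) ?_ ?_
      · have e : Nat.card ((H ⊓ T ⊓ Subgroup.upperCentralSeries R i : Subgroup R) : Set R)
            = Nat.card (H ⊓ T ⊓ Subgroup.upperCentralSeries R i : Subgroup R) := rfl
        rw [e] at hcount
        exact hcount.trans (Nat.mul_le_mul_right _ hETc)
      · intro h hh
        obtain ⟨⟨hhH, hhT⟩, hhZ⟩ := hh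
        have e : ⁅h, x₀⁆ = h * (x₀ * h⁻¹ * x₀⁻¹) := by rw [commutatorElement_def]; group
        refine ⟨⟨?_, ?_⟩, ?_⟩
        · rw [e]; exact H.mul_mem hhH (hHn.conj_mem _ (H.inv_mem hhH) x₀)
        · rw [e]; exact T.mul_mem hhT (hTn.conj_mem _ (T.inv_mem hhT) x₀)
        · exact Subgroup.mem_upperCentralSeries_succ_iff.mp hhZ x₀
      · intro h₁ hh₁ h₂ hh₂ heq
        obtain ⟨⟨hh₁H, hh₁T⟩, -⟩ := hh₁
        obtain ⟨⟨hh₂H, hh₂T⟩, -⟩ := hh₂
        have huH : h₂⁻¹ * h₁ ∈ H := H.mul_mem (H.inv_mem hh₂H) hh₁H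
        have huT : h₂⁻¹ * h₁ ∈ T := T.mul_mem (T.inv_mem hh₂T) hh₁T
        refine ⟨?_, huT⟩
        apply hKF _ huT ((hHdef _).mp huH).2
        have e : h₁ * x₀ * h₁⁻¹ = h₂ * x₀ * h₂⁻¹ := by
          have heq' : ⁅h₁, x₀⁆ = ⁅h₂, x₀⁆ := heq
          rw [commutatorElement_def, commutatorElement_def] at heq'
          exact mul_right_cancel heq'
        calc h₂⁻¹ * h₁ * x₀ = h₂⁻¹ * (h₁ * x₀ * h₁⁻¹) * h₁ := by group
          _ = h₂⁻¹ * (h₂ * x₀ * h₂⁻¹) * h₁ := by rw [e]
          _ = x₀ * (h₂⁻¹ * h₁) := by group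
    · by_cases hi' : i ≤ n
      · simp only [if_neg hi, if_pos hi']
        have hin : i = n := by omega
        have hcount := card_le_mul_of_fiber H
          (H ⊓ T ⊓ Subgroup.upperCentralSeries R i) (Set.univ : Set (R ⧸ T))
          (fun h => (QuotientGroup.mk h : R ⧸ T)) (fun _ _ => Set.mem_univ _) ?_
        · have e : Nat.card (Set.univ : Set (R ⧸ T)) = p := by
            rw [Nat.card_congr (Equiv.Set.univ (R ⧸ T))]
            exact hTidx
          rw [e, mul_comm] at hcount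
          exact hcount
        · intro h₁ hh₁ h₂ hh₂ heq
          refine ⟨⟨H.mul_mem (H.inv_mem hh₂) hh₁, ?_⟩, ?_⟩
          · exact QuotientGroup.eq.mp heq.symm
          · rw [hin, hn]; exact Subgroup.mem_top _
      · simp only [if_neg hi, if_neg hi']
        exact Nat.le_mul_of_pos_left _ hpp.pos
  · intro φ hφ hfix
    simp only [if_neg (Nat.not_succ_le_self n)] at hfix
    apply Cfsg.Agent.S0121.result hR C hCchar h1 h2 h3 φ hφ
    apply aut_fix_of_class_two hR φ hφ C ?_ ?_ ?_ 1 le_rfl (omega_exponent_odd hpp hp)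
      (fun x hx hxp => hfix x ((hHdef x).mpr ⟨hx, by simpa using hxp⟩))
    · intro x
      have hfix' := hCchar.fixed φ
      constructor
      · intro h; rw [← hfix']; exact h
      · intro h; rw [← hfix'] at h; exact h
    · intro x hx y hy w hw
      have hm := hcl _ (C.inv_mem hx) _ (C.inv_mem hy) w hw
      rw [commutatorElement_def, inv_inv, inv_inv] at hm
      exact hm
    · intro x hx w hw
      have hm : ((⟨x, hx⟩ : C) ^ p : C) ∈ frattini C :=
        Cfsg.Agent.Lib.Helper2.pow_mem_frattini (hR.to_subgroup C) ⟨x, hx⟩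
      have hm2 : x ^ p ∈ (frattini C).map C.subtype := ⟨_, hm, by simp⟩
      exact (Subgroup.mem_centralizer_iff.mp (h1 hm2) w hw).symm

end Cfsg.Agent.Lib.Helper54
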